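import Cfsg.Agent.SympUnip.Chain
import Cfsg.Agent.SympSub.Iso

/-!
The Cayley transform between elements of exponent `p` and skew nilpotent operators.
-/

set_option autoImplicit false

namespace Cfsg.Agent.SympUnip

open Module
open LinearMap (BilinForm)

variable {F : Type*} [Field F] {V : Type*} [AddCommGroup V] [Module F V]

theorem sub_one_pow_char (p : ℕ) [Fact p.Prime] [CharP F p] (f : Module.End F V) :
    (f - 1) ^ p = f ^ p - 1 := by
  have h : ((Polynomial.X - 1 : Polynomial F)) ^ p = Polynomial.X ^ p - 1 := by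
    rw [sub_pow_char, one_pow]
  simpa using congrArg (Polynomial.aeval f) h

/-- `C` is the Cayley transform of `f`. -/
def IsCay (f C : Module.End F V) : Prop := C * (f + 1) = f - 1

theorem isUnit_smul {R : Type*} [Ring R] [Algebra F R] {c : F} (hc : c ≠ 0) {x : R}
    (hx : IsUnit x) : IsUnit (c • x) := by
  rw [Algebra.smul_def]
  exact ((Ne.isUnit hc).map (algebraMap F R)).mul hx

theorem isUnit_add_one (h2 : (2 : F) ≠ 0) {p : ℕ} [Fact p.Prime] [CharP F p] {f : Module.End F V}
    (hf : f ^ p = 1) : IsUnit (f + 1) := by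
  have hn : IsNilpotent ((2 : F)⁻¹ • (f - 1)) :=
    ⟨p, by rw [smul_pow, sub_one_pow_char p, hf, sub_self, smul_zero]⟩
  have e : f + 1 = (2 : F) • ((2 : F)⁻¹ • (f - 1) + 1) := by
    rw [smul_add, smul_smul, mul_inv_cancel₀ h2, one_smul, two_smul]
    abel
  rw [e]
  exact isUnit_smul h2 hn.isUnit_add_one

/-- Exponent `p` gives a skew nilpotent transform. -/
theorem exists_cay (h2 : (2 : F) ≠ 0) {p : ℕ} [Fact p.Prime] [CharP F p] {B : BilinForm F V}
    {f : Module.End F V} (hB : ∀ u v, B (f u) (f v) = B u v) (hf : f ^ p = 1) :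
    ∃ C, IsCay f C ∧ IsSkew B C ∧ C ^ p = 0 := by
  obtain ⟨u, hu⟩ := isUnit_add_one h2 hf
  refine ⟨(f - 1) * ↑u⁻¹, ?_, ?_, ?_⟩
  · unfold IsCay
    rw [← hu, mul_assoc, Units.inv_mul, mul_one]
  · intro x y
    have hx : x = (f + 1) ((↑u⁻¹ : Module.End F V) x) := by
      rw [← hu, ← Module.End.mul_apply, Units.mul_inv, Module.End.one_apply]
    have hy : y = (f + 1) ((↑u⁻¹ : Module.End F V) y) := by
      rw [← hu, ← Module.End.mul_apply, Units.mul_inv, Module.End.one_apply]
    conv_lhs => rw [hy]
    conv_rhs => rw [hx]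
    simp only [Module.End.mul_apply, LinearMap.sub_apply, LinearMap.add_apply,
      Module.End.one_apply, map_add, map_sub, hB]
    ring
  · have hc : Commute (f - 1) (↑u⁻¹ : Module.End F V) := by
      apply Commute.units_inv_right
      rw [hu]
      exact Commute.sub_left ((Commute.refl f).add_right (Commute.one_right f)) (Commute.one_left _)
    rw [hc.mul_pow, sub_one_pow_char p, hf, sub_self, zero_mul]

theorem exists_eq_mul_inv_of_isCay {f C : Module.End F V} (h : IsCay f C) :
    C * f + C = f - 1 := by
  unfold IsCay at h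
  rwa [mul_add, mul_one] at h

/-- A skew nilpotent operator is the transform of an isometry of exponent `p`. -/
theorem exists_of_cay (h2 : (2 : F) ≠ 0) {p : ℕ} [Fact p.Prime] [CharP F p] {B : BilinForm F V}
    {C : Module.End F V} (hB : IsSkew B C) (hC : C ^ p = 0) :
    ∃ f : Module.End F V, (∀ u v, B (f u) (f v) = B u v) ∧ f ^ p = 1 ∧ IsCay f C := by
  obtain ⟨u, hu⟩ := IsNilpotent.isUnit_one_sub (R := Module.End F V) ⟨p, hC⟩
  have hcu : Commute C (↑u⁻¹ : Module.End F V) := by
    apply Commute.units_inv_right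
    rw [hu]
    exact (Commute.one_right C).sub_right (Commute.refl C)
  set f : Module.End F V := (1 + C) * ↑u⁻¹ with hf
  have hfu : f * (1 - C) = 1 + C := by rw [hf, ← hu, mul_assoc, Units.inv_mul, mul_one]
  have hcay : IsCay f C := by
    unfold IsCay
    have hfC : Commute C f :=
      Commute.mul_right ((Commute.one_right C).add_right (Commute.refl C)) hcu
    have : f - f * C = 1 + C := by rw [← hfu, mul_sub, mul_one]
    rw [mul_add, mul_one, hfC.eq]
    linear_combination (norm := abel) (-1 : ℤ) • this
  refine ⟨f, fun x y => ?_, ?_, hcay⟩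
  · have hx : x = (1 - C) ((↑u⁻¹ : Module.End F V) x) := by
      rw [← hu, ← Module.End.mul_apply, Units.mul_inv, Module.End.one_apply]
    have hy : y = (1 - C) ((↑u⁻¹ : Module.End F V) y) := by
      rw [← hu, ← Module.End.mul_apply, Units.mul_inv, Module.End.one_apply]
    have ex : f x = (1 + C) ((↑u⁻¹ : Module.End F V) x) := by rw [hf]; rfl
    have ey : f y = (1 + C) ((↑u⁻¹ : Module.End F V) y) := by rw [hf]; rfl
    rw [ex, ey]
    conv_rhs => rw [hx, hy]
    simp only [LinearMap.sub_apply, LinearMap.add_apply, Module.End.one_apply, map_add, map_sub,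
      hB _ _]
    ring
  · have h1 : Commute f (1 : Module.End F V) := Commute.one_right f
    have h2' : (f - 1) ^ p = 0 := by
      have hfC : Commute C (f + 1) :=
        (Commute.mul_right ((Commute.one_right C).add_right (Commute.refl C)) hcu).add_right
          (Commute.one_right C)
      unfold IsCay at hcay
      rw [← hcay, hfC.mul_pow, hC, zero_mul]
    rw [sub_one_pow_char p] at h2'
    exact sub_eq_zero.1 h2'

/-- Intertwining transforms intertwine. -/
theorem intertwine_of_cay {p : ℕ} {f f' C C' E : Module.End F V} (hC : IsCay f C)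
    (hC' : IsCay f' C') (hp : C' ^ p = 0) (hE : E * C = C' * E) : E * f = f' * E := by
  have key : ∀ {g D : Module.End F V}, IsCay g D → g - D * g = 1 + D := by
    intro g D h
    have := exists_eq_mul_inv_of_isCay h
    linear_combination (norm := abel) (-1 : ℤ) • this
  have e : (1 - C') * (E * f) = (1 - C') * (f' * E) := by
    have l : (1 - C') * (E * f) = E * (1 + C) := by
      rw [sub_mul, one_mul, ← mul_assoc C', ← hE, mul_assoc, ← mul_sub, key hC]
    have r : (1 - C') * (f' * E) = (1 + C') * E := by
      rw [sub_mul, one_mul, ← mul_assoc C', ← sub_mul, key hC']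
    rw [l, r, mul_add, mul_one, add_mul, one_mul, hE]
  exact (IsNilpotent.isUnit_one_sub ⟨p, hp⟩).mul_left_cancel e

/-- Intertwining isometries intertwine the transforms. -/
theorem cay_intertwine_of {f f' C C' E : Module.End F V} (hC : IsCay f C) (hC' : IsCay f' C')
    (hu : IsUnit (f + 1)) (hE : E * f = f' * E) : E * C = C' * E := by
  refine hu.mul_right_cancel ?_
  unfold IsCay at hC hC'
  rw [mul_assoc, hC, mul_assoc, mul_add, mul_one, hE]
  have : C' * (f' * E + E) = (C' * (f' + 1)) * E := by rw [mul_assoc, add_mul, one_mul]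
  rw [this, hC', mul_sub, mul_one, sub_mul, one_mul, hE]

end Cfsg.Agent.SympUnip
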