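import Cfsg.Agent.SympUnip.Levels
import Cfsg.Agent.SympUnip.Cayley
import Cfsg.Prelude.Def_Classical

/-!
Classes of elements of order `p` in `Sp_2M(q)`, `q` a power of the odd prime `p`, and signed
partitions.
-/

set_option autoImplicit false

open scoped Classical

namespace Cfsg.Agent.SympUnip

open Module Matrix
open LinearMap (BilinForm)

variable {F : Type*} [Field F]

theorem count_map_univ {ι : Type} [Fintype ι] [DecidableEq ι] (k : ι → ℕ) (K : ℕ) :
    (Finset.univ.val.map k).count K = Fintype.card (Fib k K) := by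
  rw [Multiset.count_map, Fintype.card_subtype, ← Finset.card_val]
  simp only [Finset.filter_val, eq_comm]

theorem sum_map_eq_card_idx {ι : Type} [Fintype ι] (k : ι → ℕ) :
    (Finset.univ.val.map k).sum = Fintype.card (Idx k) := by
  rw [Fintype.card_sigma]
  simp only [Fintype.card_fin]
  rfl

/-- Two spanning chains of one space have equally many chains in each length, and discriminants
in the same square class. -/
theorem levels_eq {V : Type*} [AddCommGroup V] [Module F V] {B : BilinForm F V}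
    {S : Module.End F V} {ι κ : Type} [Fintype ι] [DecidableEq ι] [Fintype κ] [DecidableEq κ]
    {k : ι → ℕ} {H : Matrix ι ι F} {x : ι → V} {k' : κ → ℕ} {H' : Matrix κ κ F} {x' : κ → V}
    (hD : Datum k H) (hx : Chain B S k H x)
    (hs : Submodule.span F (Set.range (vecs S k x)) = ⊤) (hD' : Datum k' H')
    (hx' : Chain B S k' H' x') (hs' : Submodule.span F (Set.range (vecs S k' x')) = ⊤)
    (K : ℕ) :
    Fintype.card (Fib k K) = Fintype.card (Fib k' K) ∧
      IsSquare ((blk k H K).det * (blk k' H' K).det) := by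
  have half : ∀ {ι κ : Type} [Fintype ι] [DecidableEq ι] [Fintype κ] [DecidableEq κ]
      {k : ι → ℕ} {H : Matrix ι ι F} {x : ι → V} {k' : κ → ℕ} {H' : Matrix κ κ F} {x' : κ → V},
      Datum k H → Chain B S k H x → Datum k' H' → Chain B S k' H' x' →
      Submodule.span F (Set.range (vecs S k' x')) = ⊤ →
      ∃ P : Matrix (Fib k' K) (Fib k K) F, Pᵀ * blk k' H' K * P = blk k H K ∧
        Fintype.card (Fib k K) ≤ Fintype.card (Fib k' K) := by
    intro ι κ _ _ _ _ k H x k' H' x' hD hx hD' hx' hs'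
    by_cases hK : K = 0
    · have e1 : IsEmpty (Fib k K) := ⟨fun a => by have := hD.pos a.1; have := a.2; omega⟩
      exact ⟨0, Subsingleton.elim _ _, by simp⟩
    obtain ⟨P, hP⟩ := hx.exists_congr hD' hx' hs' K (by omega)
    let Q : Matrix (Fib k' K) (Fib k K) F := Matrix.of fun c a => P c.1 a.1
    have hQ : Qᵀ * blk k' H' K * Q = blk k H K := by
      ext a b
      rw [blk, blk, Matrix.submatrix_apply, hP a.1 b.1 a.2 b.2]
      simp only [Matrix.mul_apply, transpose_apply, Finset.sum_mul, Matrix.submatrix_apply]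
      rw [Finset.sum_comm, Finset.sum_subtype (p := fun c => k' c = K) _ (by simp)]
      refine Finset.sum_congr rfl fun c _ => ?_
      rw [Finset.sum_subtype (p := fun c => k' c = K) _ (by simp)]
      rfl
    refine ⟨Q, hQ, ?_⟩
    have hinj : Function.Injective Q.mulVecLin := by
      rw [← LinearMap.ker_eq_bot, LinearMap.ker_eq_bot']
      intro c hc
      refine Matrix.eq_zero_of_mulVec_eq_zero (hD.blk_det_ne_zero K) ?_
      rw [← hQ, ← Matrix.mulVec_mulVec, show Q *ᵥ c = 0 from hc, Matrix.mulVec_zero]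
    have := LinearMap.finrank_le_finrank_of_injective hinj
    simpa using this
  obtain ⟨P, hP, hle⟩ := half hD hx hD' hx' hs'
  obtain ⟨-, -, hge⟩ := half hD' hx' hD hx hs
  have hc := le_antisymm hle hge
  refine ⟨hc, ?_⟩
  let e := Fintype.equivOfCardEq hc
  have hP' : (P.submatrix e id)ᵀ * (blk k' H' K).submatrix e e * P.submatrix e id =
      blk k H K := by
    rw [transpose_submatrix, submatrix_mul_equiv, submatrix_mul_equiv, submatrix_id_id, hP]
  have hd := congrArg Matrix.det hP'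
  rw [det_mul, det_mul, det_transpose, det_submatrix_equiv_self] at hd
  exact ⟨(P.submatrix e id).det * (blk k' H' K).det, by rw [← hd]; ring⟩

variable (p M : ℕ)

/-- The admissible partitions. -/
noncomputable def admissible : Finset (Nat.Partition (2 * M)) :=
  Finset.univ.filter fun μ : Nat.Partition (2 * M) =>
    (∀ a ∈ μ.parts, a ≤ p) ∧ ∀ j : ℕ, Odd j → Even (μ.parts.count j)

/-- Signed partitions. -/
abbrev SType : Type :=
  Σ μ : {μ : Nat.Partition (2 * M) // μ ∈ admissible p M},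
    ({j // j ∈ μ.1.parts.toFinset.filter fun j : ℕ => Even j} → Bool)

theorem card_SType : Nat.card (SType p M) =
    ∑ μ ∈ admissible p M, 2 ^ ((μ.parts.toFinset.filter fun j : ℕ => Even j).card) := by
  rw [Nat.card_eq_fintype_card, Fintype.card_sigma]
  simp only [Fintype.card_fun, Fintype.card_bool, Fintype.card_coe]
  exact Finset.sum_coe_sort (admissible p M)
    fun μ => 2 ^ ((μ.parts.toFinset.filter fun j : ℕ => Even j).card)

variable {p M}

theorem SType.le (T : SType p M) {a : ℕ} (ha : a ∈ T.1.1.parts) : a ≤ p :=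
  (Finset.mem_filter.1 T.1.2).2.1 a ha

theorem SType.even (T : SType p M) {j : ℕ} (hj : Odd j) : Even (T.1.1.parts.count j) :=
  (Finset.mem_filter.1 T.1.2).2.2 j hj

/-- The chains of a signed partition. -/
abbrev CI (T : SType p M) : Type := (K : Fin (p + 1)) × Fin (T.1.1.parts.count (K : ℕ))

/-- Their lengths. -/
def kC (T : SType p M) : CI T → ℕ := fun a => (a.1 : ℕ)

/-- The standard alternating matrix. -/
def altStd (n : ℕ) : Matrix (Fin n) (Fin n) F :=
  Matrix.of fun i j => if (i : ℕ) % 2 = 0 ∧ (j : ℕ) = i + 1 then 1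
    else if (j : ℕ) % 2 = 0 ∧ (i : ℕ) = j + 1 then -1 else 0

theorem altStd_transpose (n : ℕ) : (altStd n : Matrix (Fin n) (Fin n) F)ᵀ = -altStd n := by
  ext i j
  simp only [altStd, transpose_apply, Matrix.neg_apply, of_apply]
  split_ifs <;> first | omega | simp

theorem altStd_det_ne_zero {n : ℕ} (hn : Even n) :
    (altStd n : Matrix (Fin n) (Fin n) F).det ≠ 0 := by
  intro h0
  obtain ⟨c, hc0, hc⟩ := Matrix.exists_mulVec_eq_zero_iff.2 h0
  apply hc0
  funext i
  obtain ⟨r, hr⟩ := hn
  by_cases hi : (i : ℕ) % 2 = 0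
  · have hlt : (i : ℕ) + 1 < n := by omega
    have := congrFun hc ⟨(i : ℕ) + 1, hlt⟩
    simp only [mulVec, dotProduct, Pi.zero_apply] at this
    rw [Fintype.sum_eq_single i] at this
    · simp only [altStd, of_apply, Fin.val_mk] at this
      rw [if_neg (by omega), if_pos (by simp [hi])] at this
      simpa using this
    · intro j hj
      have hne : (j : ℕ) ≠ i := fun h => hj (Fin.ext h)
      simp only [altStd, of_apply, Fin.val_mk]
      rw [if_neg (by omega), if_neg (by omega), zero_mul]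
  · have := congrFun hc ⟨(i : ℕ) - 1, by omega⟩
    simp only [mulVec, dotProduct, Pi.zero_apply] at this
    rw [Fintype.sum_eq_single i] at this
    · simp only [altStd, of_apply, Fin.val_mk] at this
      rw [if_pos (by omega)] at this
      simpa using this
    · intro j hj
      have hne : (j : ℕ) ≠ i := fun h => hj (Fin.ext h)
      simp only [altStd, of_apply, Fin.val_mk]
      rw [if_neg (by omega), if_neg (by omega), zero_mul]

/-- The sign of a part, as a scalar. -/
noncomputable def sgn (ν : F) (T : SType p M) (K : ℕ) : F :=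
  if h : K ∈ T.1.1.parts.toFinset.filter (fun j : ℕ => Even j) then (if T.2 ⟨K, h⟩ then ν else 1)
  else 1

/-- The standard block. -/
noncomputable def cblk (ν : F) (T : SType p M) (K : ℕ) :
    Matrix (Fin (T.1.1.parts.count K)) (Fin (T.1.1.parts.count K)) F :=
  if Even K then diagonal (fun i => if (i : ℕ) = 0 then sgn ν T K else 1)
  else altStd _

/-- The standard datum. -/
noncomputable def HC (ν : F) (T : SType p M) : Matrix (CI T) (CI T) F :=
  blockDiagonal' fun K => cblk ν T (K : ℕ)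

theorem sgn_ne_zero {ν : F} (hν : ν ≠ 0) (T : SType p M) (K : ℕ) : sgn ν T K ≠ 0 := by
  unfold sgn
  split_ifs <;> simp [hν]

theorem cblk_det_ne_zero {ν : F} (hν : ν ≠ 0) (T : SType p M) (K : ℕ) :
    (cblk ν T K).det ≠ 0 := by
  unfold cblk
  split_ifs with h
  · rw [det_diagonal]
    refine Finset.prod_ne_zero_iff.2 fun i _ => ?_
    split_ifs
    · exact sgn_ne_zero hν T K
    · exact one_ne_zero
  · exact altStd_det_ne_zero (T.even (Nat.not_even_iff_odd.1 h))

theorem cblk_transpose (ν : F) (T : SType p M) (K : ℕ) :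
    (cblk ν T K)ᵀ = ((-1 : F) ^ K) • cblk ν T K := by
  unfold cblk
  split_ifs with h
  · rw [diagonal_transpose, h.neg_one_pow, one_smul]
  · rw [altStd_transpose, (Nat.not_even_iff_odd.1 h).neg_one_pow, neg_one_smul]

theorem datum_HC {ν : F} (hν : ν ≠ 0) (T : SType p M) : Datum (kC T) (HC ν T) := by
  refine ⟨fun a => ?_, fun a b h => ?_, fun y hy => ?_⟩
  · have : 0 < T.1.1.parts.count (a.1 : ℕ) := a.2.pos
    exact T.1.1.parts_pos (Multiset.count_pos.1 this)
  · obtain ⟨K, i⟩ := a
    obtain ⟨L, j⟩ := b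
    exact blockDiagonal'_apply_ne _ _ _ fun e => h (congrArg Fin.val e)
  · have e : (blockDiagonal' fun K : Fin (p + 1) => (cblk ν T (K : ℕ))⁻¹) * HC ν T = 1 := by
      rw [HC, ← blockDiagonal'_mul, ← blockDiagonal'_one]
      congr 1
      funext K
      exact nonsing_inv_mul _ (Ne.isUnit (cblk_det_ne_zero hν T _))
    rw [← one_mulVec y, ← e, ← mulVec_mulVec, hy, mulVec_zero]

theorem HC_symm (ν : F) (T : SType p M) (a b : CI T) :
    HC ν T b a = (-1 : F) ^ kC T a * HC ν T a b := by
  obtain ⟨K, i⟩ := a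
  obtain ⟨L, j⟩ := b
  by_cases h : K = L
  · subst h
    simp only [HC, blockDiagonal'_apply_eq, kC]
    have := congrFun (congrFun (cblk_transpose ν T (K : ℕ)) i) j
    simpa using this
  · simp only [HC, blockDiagonal'_apply_ne _ _ _ h, blockDiagonal'_apply_ne _ _ _ (Ne.symm h),
      mul_zero]

/-- The chains of a given length. -/
def fibEquiv (T : SType p M) (K : Fin (p + 1)) :
    Fin (T.1.1.parts.count (K : ℕ)) ≃ Fib (kC T) (K : ℕ) where
  toFun i := ⟨⟨K, i⟩, rfl⟩
  invFun a := Fin.cast (congrArg (fun t => T.1.1.parts.count t) a.2) a.1.2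
  left_inv i := rfl
  right_inv a := by
    obtain ⟨⟨L, j⟩, h⟩ := a
    obtain rfl : L = K := Fin.ext h
    rfl

theorem card_fib (T : SType p M) (K : ℕ) :
    Fintype.card (Fib (kC T) K) = T.1.1.parts.count K := by
  by_cases h : K ≤ p
  · simpa using (Fintype.card_congr (fibEquiv T ⟨K, by omega⟩)).symm
  · rw [Multiset.count_eq_zero.2 fun ha => h (T.le ha), Fintype.card_eq_zero_iff]
    exact ⟨fun a => h (a.2 ▸ Nat.le_of_lt_succ a.1.1.2)⟩

theorem map_kC (T : SType p M) : Finset.univ.val.map (kC T) = T.1.1.parts := by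
  ext K
  rw [count_map_univ, card_fib]

theorem card_idx_kC (T : SType p M) : Fintype.card (Idx (kC T)) = 2 * M := by
  rw [← sum_map_eq_card_idx, map_kC, T.1.1.parts_sum]

theorem det_blk_HC (ν : F) (T : SType p M) (K : Fin (p + 1)) :
    (blk (kC T) (HC ν T) (K : ℕ)).det = (cblk ν T (K : ℕ)).det := by
  rw [← det_submatrix_equiv_self (fibEquiv T K)]
  congr 1
  ext i j
  simp [blk, fibEquiv, HC]

theorem det_blk_of_even (ν : F) (T : SType p M) {K : ℕ} (hK : Even K)
    (hmem : K ∈ T.1.1.parts) :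
    (blk (kC T) (HC ν T) K).det = sgn ν T K := by
  rw [show K = ((⟨K, Nat.lt_succ_of_le (T.le hmem)⟩ : Fin (p + 1)) : ℕ) from rfl, det_blk_HC]
  have hpos : 0 < T.1.1.parts.count K := Multiset.count_pos.2 hmem
  rw [cblk, if_pos hK, det_diagonal, Fintype.prod_eq_single (⟨0, hpos⟩ : Fin _)]
  · simp
  · intro i hi
    rw [if_neg fun e => hi (Fin.ext e)]

section model

variable (ν : F) (T : SType p M)

/-- The shift of the model. -/
noncomputable def mShift : Module.End F (Idx (kC T) → F) :=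
  (Pi.basisFun F (Idx (kC T))).constr F fun u =>
    if h : (u.2 : ℕ) + 1 < kC T u.1 then Pi.single ⟨u.1, ⟨(u.2 : ℕ) + 1, h⟩⟩ 1 else 0

theorem mShift_single (u : Idx (kC T)) :
    mShift (F := F) T (Pi.single u 1) =
      if h : (u.2 : ℕ) + 1 < kC T u.1 then Pi.single ⟨u.1, ⟨(u.2 : ℕ) + 1, h⟩⟩ 1 else 0 := by
  rw [← Pi.basisFun_apply, mShift, Module.Basis.constr_basis]

/-- The start of a chain. -/
noncomputable def mStart {ν : F} (hν : ν ≠ 0) (a : CI T) : Idx (kC T) → F :=
  Pi.single ⟨a, ⟨0, (datum_HC hν T).pos a⟩⟩ 1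

theorem mShift_pow {hν : ν ≠ 0} (a : CI T) : ∀ j : ℕ, (mShift T ^ j) (mStart T hν a) =
    if h : j < kC T a then Pi.single ⟨a, ⟨j, h⟩⟩ 1 else 0 := by
  intro j
  induction j with
  | zero => rw [dif_pos (show 0 < kC T a from (datum_HC hν T).pos a)]; rfl
  | succ j ih =>
    rw [pow_succ', Module.End.mul_apply, ih]
    by_cases h : j < kC T a
    · rw [dif_pos h, mShift_single]
    · rw [dif_neg h, map_zero, dif_neg (by omega)]

theorem gram_skew (u v : Idx (kC T)) :
    gram (kC T) (HC ν T) v u = - gram (kC T) (HC ν T) u v := by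
  obtain ⟨a, i⟩ := u
  obtain ⟨b, j⟩ := v
  by_cases hab : kC T a = kC T b
  · simp only [gram_apply]
    by_cases h : (i : ℕ) + j + 1 = kC T a
    · have hk : (-1 : F) ^ kC T a = (-1 : F) ^ ((i : ℕ) + j + 1) := by rw [h]
      rw [if_pos h, if_pos (by omega), HC_symm ν T a b, hk, pow_succ, pow_add]
      have : (-1 : F) ^ (i : ℕ) * (-1 : F) ^ (i : ℕ) = 1 := by rw [← mul_pow]; simp
      linear_combination (-((-1 : F) ^ (j : ℕ)) * HC ν T a b) * this
    · rw [if_neg h, if_neg (by omega), neg_zero]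
  · have h1 : HC ν T a b = 0 := by
      obtain ⟨K, i⟩ := a
      obtain ⟨L, j⟩ := b
      exact blockDiagonal'_apply_ne _ _ _ fun e => hab (congrArg Fin.val e)
    simp only [gram_apply, HC_symm ν T a b, h1]
    simp

theorem exists_model (h2 : (2 : F) ≠ 0) (hν : ν ≠ 0) :
    ∃ (S : Module.End F (Fin M ⊕ Fin M → F)) (x : CI T → Fin M ⊕ Fin M → F),
      IsSkew (Forms.sympBil M F) S ∧ S ^ p = 0 ∧
      Chain (Forms.sympBil M F) S (kC T) (HC ν T) x ∧
      Submodule.span F (Set.range (vecs S (kC T) x)) = ⊤ := by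
  set G := gram (kC T) (HC ν T)
  set B := Matrix.toBilin' G
  set S₀ := mShift (F := F) T
  have hB : ∀ u v, B (Pi.single u 1) (Pi.single v 1) = G u v := fun u v => Matrix.toBilin'_single ..
  have hch : Chain B S₀ (kC T) (HC ν T) (mStart T hν) := by
    refine ⟨fun a => by rw [mShift_pow, dif_neg (lt_irrefl _)], fun a b i j hi hj => ?_⟩
    rw [mShift_pow, mShift_pow, dif_pos hi, dif_pos hj, hB]
    rfl
  have hvec : ∀ u, vecs S₀ (kC T) (mStart T hν) u = Pi.single u 1 := fun u => by
    rw [vecs, mShift_pow, dif_pos u.2.2]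
  have hskew : IsSkew B S₀ := by
    have : B.compl₁₂ S₀ LinearMap.id = -(B.compl₁₂ LinearMap.id S₀) := by
      refine LinearMap.BilinForm.ext_basis (Pi.basisFun F _) fun u v => ?_
      simp only [LinearMap.compl₁₂_apply, LinearMap.neg_apply, LinearMap.id_coe, id_eq,
        Pi.basisFun_apply]
      obtain ⟨a, i⟩ := u
      obtain ⟨b, j⟩ := v
      rw [← hvec ⟨a, i⟩, ← hvec ⟨b, j⟩]
      show B (S₀ ((S₀ ^ (i : ℕ)) _)) ((S₀ ^ (j : ℕ)) _) =
        - B ((S₀ ^ (i : ℕ)) _) (S₀ ((S₀ ^ (j : ℕ)) _))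
      rw [← Module.End.mul_apply, ← pow_succ', ← Module.End.mul_apply, ← pow_succ']
      by_cases hab : kC T a = kC T b
      · by_cases hi : (i : ℕ) + 1 < kC T a
        · by_cases hj : (j : ℕ) + 1 < kC T b
          · rw [hch.gram_eq a b _ _ hi j.2, hch.gram_eq a b _ _ i.2 hj]
            split_ifs <;> first | omega | (rw [pow_succ]; ring) | simp
          · rw [hch.gram_eq a b _ _ hi j.2, if_neg (by omega),
              pow_eq_zero_of_le (hch.nil b) (by omega), map_zero, neg_zero]
        · rw [pow_eq_zero_of_le (hch.nil a) (by omega), map_zero, LinearMap.zero_apply]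
          by_cases hj : (j : ℕ) + 1 < kC T b
          · rw [hch.gram_eq a b _ _ i.2 hj, if_neg (by omega), neg_zero]
          · rw [pow_eq_zero_of_le (hch.nil b) (by omega), map_zero, neg_zero]
      · have h0 : HC ν T a b = 0 := (datum_HC hν T).blocks a b hab
        have l : B ((S₀ ^ ((i : ℕ) + 1)) (mStart T hν a)) ((S₀ ^ (j : ℕ)) (mStart T hν b)) = 0 := by
          by_cases hi : (i : ℕ) + 1 < kC T a
          · rw [hch.gram_eq a b _ _ hi j.2]; simp [h0]
          · rw [pow_eq_zero_of_le (hch.nil a) (by omega)]; simp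
        have r : B ((S₀ ^ (i : ℕ)) (mStart T hν a)) ((S₀ ^ ((j : ℕ) + 1)) (mStart T hν b)) = 0 := by
          by_cases hj : (j : ℕ) + 1 < kC T b
          · rw [hch.gram_eq a b _ _ i.2 hj]; simp [h0]
          · rw [pow_eq_zero_of_le (hch.nil b) (by omega)]; simp
        rw [l, r, neg_zero]
    exact fun u v => LinearMap.congr_fun₂ this u v
  have halt : B.IsAlt := by
    intro v
    have e : B v v = - B v v := by
      have hG : Gᵀ = -G := by ext u v; exact gram_skew ν T u v
      simp only [B, Matrix.toBilin'_apply']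
      conv_lhs => rw [Matrix.dotProduct_mulVec, ← Matrix.mulVec_transpose, hG, Matrix.neg_mulVec,
        neg_dotProduct, dotProduct_comm]
    have : (2 : F) * B v v = 0 := by linear_combination e
    exact (mul_eq_zero.1 this).resolve_left h2
  have hnd : B.Nondegenerate := by
    refine LinearMap.BilinForm.nondegenerate_toBilin'_of_det_ne_zero' G fun h0 => ?_
    obtain ⟨c, hc0, hc⟩ := Matrix.exists_mulVec_eq_zero_iff.2 h0
    exact hc0 ((datum_HC hν T).gram_inj c hc)
  have hfin : Module.finrank F (Idx (kC T) → F) = 2 * M := by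
    rw [Module.finrank_fintype_fun_eq_card, card_idx_kC]
  obtain ⟨E, hE⟩ := SympSub.exists_iso_sympBil halt hnd hfin
  let S : Module.End F (Fin M ⊕ Fin M → F) := E.toLinearMap ∘ₗ S₀ ∘ₗ E.symm.toLinearMap
  have hS : ∀ v, S (E v) = E (S₀ v) := fun v => by simp [S]
  have hSp : ∀ (n : ℕ) v, (S ^ n) (E v) = E ((S₀ ^ n) v) := by
    intro n
    induction n with
    | zero => simp
    | succ n ih => intro v; rw [pow_succ', pow_succ', Module.End.mul_apply, ih, hS]; rfl
  refine ⟨S, fun a => E (mStart T hν a), ?_, ?_, ⟨fun a => by rw [hSp, hch.nil, map_zero],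
    fun a b i j hi hj => by rw [hSp, hSp, hE]; exact hch.gram_eq a b i j hi hj⟩, ?_⟩
  · intro u v
    obtain ⟨u, rfl⟩ := E.surjective u
    obtain ⟨v, rfl⟩ := E.surjective v
    rw [hS, hS, hE, hE]
    exact hskew u v
  · have h0 : (S₀ ^ p) = 0 := by
      refine (Pi.basisFun F _).ext fun u => ?_
      obtain ⟨a, i⟩ := u
      rw [Pi.basisFun_apply, ← hvec ⟨a, i⟩, LinearMap.zero_apply]
      show (S₀ ^ p) ((S₀ ^ (i : ℕ)) _) = 0
      rw [← pow_add_apply]
      exact pow_eq_zero_of_le (hch.nil a) (le_add_right (Nat.le_of_lt_succ a.1.2))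
    refine LinearMap.ext fun w => ?_
    obtain ⟨v, rfl⟩ := E.surjective w
    rw [hSp, h0]
    simp
  · rw [eq_top_iff]
    intro w _
    obtain ⟨v, rfl⟩ := E.surjective w
    rw [pi_eq_sum_univ' v, map_sum]
    refine sum_mem fun u _ => ?_
    rw [map_smul]
    refine Submodule.smul_mem _ _ (Submodule.subset_span ⟨u, ?_⟩)
    show (S ^ (u.2 : ℕ)) (E _) = _
    rw [hSp]
    exact congrArg E (hvec u)

end model

/-- The matrix of a symplectic element as an endomorphism. -/
noncomputable def spEnd (g : Matrix.symplecticGroup (Fin M) F) :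
    Module.End F (Fin M ⊕ Fin M → F) :=
  Matrix.toLinAlgEquiv' (g : Matrix (Fin M ⊕ Fin M) (Fin M ⊕ Fin M) F)

theorem spEnd_iso (g : Matrix.symplecticGroup (Fin M) F) (u v : Fin M ⊕ Fin M → F) :
    Forms.sympBil M F (spEnd g u) (spEnd g v) = Forms.sympBil M F u v := by
  rw [spEnd, Forms.sympBil_apply, Forms.sympBil_apply, Matrix.toLinAlgEquiv'_apply,
    Matrix.toLinAlgEquiv'_apply]
  exact Forms.mem_symplecticGroup_iff_sympForm.1 g.2 u v

theorem spEnd_mul (g h : Matrix.symplecticGroup (Fin M) F) :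
    spEnd (g * h) = spEnd g * spEnd h := map_mul Matrix.toLinAlgEquiv' _ _

theorem spEnd_one : spEnd (1 : Matrix.symplecticGroup (Fin M) F) = 1 :=
  map_one Matrix.toLinAlgEquiv'

theorem spEnd_pow (g : Matrix.symplecticGroup (Fin M) F) (n : ℕ) : spEnd (g ^ n) = spEnd g ^ n := by
  induction n with
  | zero => rw [pow_zero, pow_zero, spEnd_one]
  | succ n ih => rw [pow_succ, spEnd_mul, ih, pow_succ]

theorem spEnd_injective : Function.Injective (spEnd (F := F) (M := M)) := fun g h e =>
  Subtype.ext (Matrix.toLinAlgEquiv'.injective e)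

theorem exists_spEnd_eq (f : Module.End F (Fin M ⊕ Fin M → F))
    (hf : ∀ u v, Forms.sympBil M F (f u) (f v) = Forms.sympBil M F u v) :
    ∃ g : Matrix.symplecticGroup (Fin M) F, spEnd g = f := by
  refine ⟨⟨Matrix.toLinAlgEquiv'.symm f, ?_⟩, Matrix.toLinAlgEquiv'.apply_symm_apply f⟩
  rw [Forms.mem_symplecticGroup_iff_sympForm]
  intro u v
  rw [← Forms.sympBil_apply, ← Forms.sympBil_apply, ← Matrix.toLinAlgEquiv'_apply,
    ← Matrix.toLinAlgEquiv'_apply, Matrix.toLinAlgEquiv'.apply_symm_apply]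
  exact hf u v

/-- `g` has the signed partition `T`. -/
def Realises (ν : F) (T : SType p M) (g : Matrix.symplecticGroup (Fin M) F) : Prop :=
  ∃ (C : Module.End F (Fin M ⊕ Fin M → F)) (x : CI T → Fin M ⊕ Fin M → F),
    IsCay (spEnd g) C ∧ C ^ p = 0 ∧ Chain (Forms.sympBil M F) C (kC T) (HC ν T) x ∧
      Submodule.span F (Set.range (vecs C (kC T) x)) = ⊤

section classes

variable [Fact p.Prime] [CharP F p] {ν : F}

theorem two_ne_zero_of_ne (hp : p ≠ 2) : (2 : F) ≠ 0 := by
  intro h
  have : ((2 : ℕ) : F) = 0 := by exact_mod_cast h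
  exact hp ((Nat.prime_dvd_prime_iff_eq Fact.out Nat.prime_two).1
    ((CharP.cast_eq_zero_iff F p 2).1 this))

theorem exists_realiser (hp : p ≠ 2) (hν : ν ≠ 0) (T : SType p M) :
    ∃ g : Matrix.symplecticGroup (Fin M) F, g ^ p = 1 ∧ Realises ν T g := by
  have h2 : (2 : F) ≠ 0 := two_ne_zero_of_ne hp
  obtain ⟨S, x, hS, hSp, hx, hs⟩ := exists_model ν T h2 hν
  obtain ⟨f, hf, hfp, hc⟩ := exists_of_cay h2 hS hSp
  obtain ⟨g, rfl⟩ := exists_spEnd_eq f hf
  exact ⟨g, spEnd_injective (by rw [spEnd_pow, hfp, spEnd_one]), S, x, hc, hSp, hx, hs⟩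

theorem isConj_of_realises {T : SType p M} {g g' : Matrix.symplecticGroup (Fin M) F}
    (hν : ν ≠ 0) (h : Realises ν T g) (h' : Realises ν T g') : IsConj g g' := by
  obtain ⟨C, x, hC, hCp, hx, hs⟩ := h
  obtain ⟨C', x', hC', hCp', hx', hs'⟩ := h'
  obtain ⟨E, hEC, hE⟩ := exists_iso_of_chains (datum_HC hν T) hx hs hx' hs'
  obtain ⟨c, hc⟩ := exists_spEnd_eq E.toLinearMap hE
  have h1 : E.toLinearMap * C = C' * E.toLinearMap := LinearMap.ext hEC
  have h2 := intertwine_of_cay hC hC' hCp' h1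
  rw [isConj_iff]
  refine ⟨c, ?_⟩
  rw [mul_inv_eq_iff_eq_mul]
  exact spEnd_injective (by rw [spEnd_mul, spEnd_mul, hc, h2])

theorem realises_conj {T : SType p M} {g g' : Matrix.symplecticGroup (Fin M) F}
    (h : Realises ν T g) (hc : IsConj g g') : Realises ν T g' := by
  obtain ⟨c, rfl⟩ := isConj_iff.1 hc
  obtain ⟨C, x, hC, hCp, hx, hs⟩ := h
  set E := spEnd c
  set E' := spEnd c⁻¹
  have h1 : E' * E = 1 := by rw [← spEnd_mul, inv_mul_cancel, spEnd_one]
  have h1' : E * E' = 1 := by rw [← spEnd_mul, mul_inv_cancel, spEnd_one]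
  set C' := E * C * E' with hC'
  have hpow : ∀ (n : ℕ) v, (C' ^ n) (E v) = E ((C ^ n) v) := by
    intro n
    induction n with
    | zero => simp
    | succ n ih =>
      intro v
      rw [pow_succ', pow_succ', Module.End.mul_apply, ih, Module.End.mul_apply]
      show (E * C * E' * E) _ = _
      rw [mul_assoc, h1, mul_one]; rfl
  refine ⟨C', fun a => E (x a), ?_, ?_, ⟨fun a => by rw [hpow, hx.nil, map_zero],
    fun a b i j hi hj => ?_⟩, ?_⟩
  · unfold IsCay at hC ⊢
    rw [spEnd_mul, spEnd_mul]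
    have e1 : E * spEnd g * E' + 1 = E * (spEnd g + 1) * E' := by
      rw [mul_add, mul_one, add_mul, h1']
    have e2 : E * spEnd g * E' - 1 = E * (spEnd g - 1) * E' := by
      rw [mul_sub, mul_one, sub_mul, h1']
    rw [e1, e2, ← hC, hC']
    simp only [mul_assoc]
    rw [← mul_assoc E' E, h1, one_mul]
  · have : E * C ^ p = C' ^ p * E := LinearMap.ext fun v => (hpow p v).symm
    rw [hCp, mul_zero] at this
    calc C' ^ p = C' ^ p * E * E' := by rw [mul_assoc, h1', mul_one]
      _ = 0 := by rw [← this, zero_mul]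
  · rw [hpow, hpow, spEnd_iso]
    exact hx.gram_eq a b i j hi hj
  · rw [eq_top_iff]
    intro w _
    have hw : w = E (E' w) := by rw [← Module.End.mul_apply, h1']; rfl
    obtain ⟨d, hd⟩ := (Submodule.mem_span_range_iff_exists_fun F).1
      (hs ▸ (Submodule.mem_top : E' w ∈ (⊤ : Submodule F _)))
    rw [hw, ← hd, map_sum]
    refine sum_mem fun u _ => ?_
    rw [map_smul]
    exact Submodule.smul_mem _ _ (Submodule.subset_span ⟨u, hpow _ _⟩)

theorem realises_unique (hp : p ≠ 2) (hν : ν ≠ 0) (hsq : ¬ IsSquare ν) {T T' : SType p M}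
    {g : Matrix.symplecticGroup (Fin M) F} (hg : g ^ p = 1) (h : Realises ν T g)
    (h' : Realises ν T' g) : T = T' := by
  have h2 : (2 : F) ≠ 0 := two_ne_zero_of_ne hp
  obtain ⟨C, x, hC, -, hx, hs⟩ := h
  obtain ⟨C', x', hC', -, hx', hs'⟩ := h'
  obtain rfl : C' = C := by
    refine (isUnit_add_one h2 (p := p) (f := spEnd g) ?_).mul_right_cancel ?_
    · rw [← spEnd_pow, hg, spEnd_one]
    · exact hC'.trans hC.symm
  have key := levels_eq (datum_HC hν T) hx hs (datum_HC hν T') hx' hs'
  obtain ⟨⟨μ, hμ⟩, ε⟩ := T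
  obtain ⟨⟨μ', hμ'⟩, ε'⟩ := T'
  obtain rfl : μ = μ' := by
    apply Nat.Partition.ext
    ext K
    have := (key K).1
    rwa [card_fib, card_fib] at this
  congr 1
  funext ⟨j, hj⟩
  have hj' := Finset.mem_filter.1 hj
  have hk := (key j).2
  rw [det_blk_of_even _ _ hj'.2 (Multiset.mem_toFinset.1 hj'.1),
    det_blk_of_even _ _ hj'.2 (Multiset.mem_toFinset.1 hj'.1)] at hk
  simp only [sgn, dif_pos hj] at hk
  cases h1 : ε ⟨j, hj⟩ <;> cases h2 : ε' ⟨j, hj⟩ <;>
    simp only [h1, h2, if_true, Bool.false_eq_true, if_false, one_mul, mul_one] at hk ⊢ <;>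
    exact absurd hk hsq

theorem exists_type [Finite F] (hp : p ≠ 2) (hν : ν ≠ 0) (hsq : ¬ IsSquare ν)
    (g : Matrix.symplecticGroup (Fin M) F) (hg : g ^ p = 1) :
    ∃ T : SType p M, Realises ν T g := by
  have h2 : (2 : F) ≠ 0 := two_ne_zero_of_ne hp
  obtain ⟨C, hC, hS, hCp⟩ :=
    exists_cay h2 (f := spEnd g) (spEnd_iso g) (p := p) (by rw [← spEnd_pow, hg, spEnd_one])
  obtain ⟨ι, inst, k, H, x, hk, -, hD, hx, hs⟩ :=
    hasChain Forms.sympBil_isAlt Forms.sympBil_nondegenerate hS h2 hCp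
  have hcardI : Fintype.card (Idx k) = 2 * M := by
    rw [← Module.finrank_eq_card_basis (Module.Basis.mk (hx.linearIndependent hD) hs.ge),
      Module.finrank_fintype_fun_eq_card, Fintype.card_sum, Fintype.card_fin]
    omega
  have hAlt : ∀ K, Odd K → (blk k H K)ᵀ = -(blk k H K) := fun K hK => by
    rw [hx.blk_transpose Forms.sympBil_isAlt hS hD K, hK.neg_one_pow, neg_one_smul]
  let μ : Nat.Partition (2 * M) :=
    ⟨Finset.univ.val.map k, fun {i} hi => by
      obtain ⟨a, -, rfl⟩ := Multiset.mem_map.1 hi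
      exact hD.pos a, by rw [sum_map_eq_card_idx, hcardI]⟩
  have hμ : μ ∈ admissible p M := by
    refine Finset.mem_filter.2 ⟨Finset.mem_univ _, fun a ha => ?_, fun j hj => ?_⟩
    · obtain ⟨b, -, rfl⟩ := Multiset.mem_map.1 ha
      exact hk b
    · rw [count_map_univ]
      exact (exists_congr_alt h2 (hAlt j hj) (hAlt j hj) (hD.blk_det_ne_zero j)
        (hD.blk_det_ne_zero j)).1
  let T : SType p M := ⟨⟨μ, hμ⟩, fun j => decide (¬ IsSquare (blk k H (j : ℕ)).det)⟩
  have hcard : ∀ K, Fintype.card (Fib k K) = Fintype.card (Fib (kC T) K) := fun K => by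
    rw [card_fib]
    exact (count_map_univ k K).symm
  refine ⟨T, C, ?_⟩
  have hP : ∀ K, ∃ P : Matrix (Fib k K) (Fib (kC T) K) F,
      Pᵀ * blk k H K * P = blk (kC T) (HC ν T) K := by
    intro K
    let e := Fintype.equivOfCardEq (hcard K)
    set B' := (blk (kC T) (HC ν T) K).submatrix e e with hB'
    suffices hh : ∃ P₀ : Matrix (Fib k K) (Fib k K) F, P₀ᵀ * blk k H K * P₀ = B' by
      obtain ⟨P₀, hP₀⟩ := hh
      refine ⟨P₀.submatrix id e.symm, ?_⟩
      rw [transpose_submatrix, ← Equiv.coe_refl,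
        ← submatrix_id_id (blk k H K), ← Equiv.coe_refl, submatrix_mul_equiv, submatrix_mul_equiv,
        hP₀, hB', submatrix_submatrix]
      simp
    have hBd : B'.det ≠ 0 := by
      rw [hB', det_submatrix_equiv_self]
      exact (datum_HC hν T).blk_det_ne_zero K
    have hBt : B'ᵀ = ((-1 : F) ^ K) • B' := by
      ext a b
      simp only [hB', blk, transpose_apply, submatrix_apply, Matrix.smul_apply, smul_eq_mul]
      rw [HC_symm ν T (e a).1 (e b).1, (e a).2]
    rcases Nat.even_or_odd K with hK | hK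
    · have hAt : (blk k H K)ᵀ = blk k H K := by
        rw [hx.blk_transpose Forms.sympBil_isAlt hS hD K, hK.neg_one_pow, one_smul]
      have hBt' : B'ᵀ = B' := by rw [hBt, hK.neg_one_pow, one_smul]
      obtain ⟨P, hP⟩ := GraphForms.exists_congr_of_isSquare h2 hBt' hAt hBd (hD.blk_det_ne_zero K)
        (by
          rw [hB', det_submatrix_equiv_self]
          by_cases hmem : K ∈ μ.parts
          · rw [det_blk_of_even ν T hK hmem]
            have hj : K ∈ μ.parts.toFinset.filter fun j : ℕ => Even j :=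
              Finset.mem_filter.2 ⟨Multiset.mem_toFinset.2 hmem, hK⟩
            simp only [sgn, T, dif_pos hj]
            by_cases hd : IsSquare (blk k H K).det
            · simp [hd]
            · rw [if_pos (by simp [hd])]
              exact isSquare_mul_of_not h2 hsq hd
          · haveI : IsEmpty (Fib (kC T) K) := by
              rw [← Fintype.card_eq_zero_iff, card_fib]
              exact Multiset.count_eq_zero.2 hmem
            haveI : IsEmpty (Fib k K) := e.isEmpty
            simp [Matrix.det_isEmpty])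
      exact ⟨P, hP⟩
    · obtain ⟨-, P, hP⟩ := exists_congr_alt h2 (hAlt K hK)
        (show B'ᵀ = -B' by rw [hBt, hK.neg_one_pow, neg_one_smul]) (hD.blk_det_ne_zero K) hBd
      exact ⟨P, hP⟩
  obtain ⟨x', hx', hs'⟩ := exists_change hD hx hs (datum_HC hν T) hcard hP
  exact ⟨x', hC, hCp, hx', hs'⟩

/-- The count. -/
theorem card_classes [Finite F] (hp : p ≠ 2) :
    Nat.card {C : ConjClasses ↥(Matrix.symplecticGroup (Fin M) F) //
        ∃ g : Matrix.symplecticGroup (Fin M) F, ConjClasses.mk g = C ∧ orderOf g = p} =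
      Nat.card (SType p M) - 1 := by
  have h2 : (2 : F) ≠ 0 := two_ne_zero_of_ne hp
  obtain ⟨ν, hsq⟩ := FiniteField.exists_nonsquare (F := F) (fun e => h2 (by
    have h := ringChar.Nat.cast_ringChar (R := F)
    rwa [e] at h))
  have hν : ν ≠ 0 := fun h => hsq (h ▸ IsSquare.zero)
  set Sp := Matrix.symplecticGroup (Fin M) F
  choose r hr hreal using fun T : SType p M => exists_realiser (F := F) (ν := ν) hp hν T
  let Φ : SType p M → {C : ConjClasses Sp // ∃ g, ConjClasses.mk g = C ∧ g ^ p = 1} :=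
    fun T => ⟨ConjClasses.mk (r T), r T, rfl, hr T⟩
  have hΦ : Function.Bijective Φ := by
    constructor
    · intro T T' e
      have hc : IsConj (r T) (r T') :=
        ConjClasses.mk_eq_mk_iff_isConj.1 (congrArg Subtype.val e)
      exact realises_unique hp hν hsq (hr T') (realises_conj (hreal T) hc) (hreal T')
    · rintro ⟨C, g, rfl, hg⟩
      obtain ⟨T, hT⟩ := exists_type hp hν hsq g hg
      exact ⟨T, Subtype.ext
        (ConjClasses.mk_eq_mk_iff_isConj.2 (isConj_of_realises hν (hreal T) hT))⟩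
  rw [Nat.card_eq_of_bijective Φ hΦ]
  haveI : Finite Sp := inferInstance
  haveI : Fintype {C : ConjClasses Sp // ∃ g, ConjClasses.mk g = C ∧ g ^ p = 1} :=
    Fintype.ofFinite _
  let one : {C : ConjClasses Sp // ∃ g, ConjClasses.mk g = C ∧ g ^ p = 1} :=
    ⟨ConjClasses.mk 1, 1, rfl, one_pow p⟩
  rw [← Nat.card_congr (Equiv.optionSubtypeNe one), Finite.card_option, Nat.add_sub_cancel]
  refine Nat.card_congr
    ((Equiv.subtypeEquivRight fun C => ?_).trans
      (Equiv.subtypeSubtypeEquivSubtypeInter _ (fun C => C ≠ one.1)).symm |>.trans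
        (Equiv.subtypeEquivRight fun C => ?_))
  · constructor
    · rintro ⟨g, rfl, hg⟩
      refine ⟨⟨g, rfl, by rw [← hg]; exact pow_orderOf_eq_one g⟩, fun e => ?_⟩
      have hg1 : g = 1 := by
        obtain ⟨c, hc⟩ := isConj_iff.1 (ConjClasses.mk_eq_mk_iff_isConj.1 e)
        rw [mul_inv_eq_iff_eq_mul, one_mul, mul_eq_left] at hc
        exact hc
      rw [hg1, orderOf_one] at hg
      exact (Fact.out : p.Prime).one_lt.ne hg
    · rintro ⟨⟨g, rfl, hg⟩, hne⟩
      refine ⟨g, rfl, orderOf_eq_prime hg fun h => hne ?_⟩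
      show ConjClasses.mk g = ConjClasses.mk 1
      rw [h]
  · exact not_congr Subtype.ext_iff.symm

end classes

end Cfsg.Agent.SympUnip
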