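import Mathlib

/-!
Skew nilpotent operators of alternating spaces in odd characteristic: chains.

A chain datum is a finite index set `ι` with a length `k a` for each index and a matrix `H`
linking indices of equal length; the chain vectors `S^j (x a)`, `j < k a`, then have the Gram
matrix `gram k H`.
-/

set_option autoImplicit false

namespace Cfsg.Agent.SympUnip

open Module
open LinearMap (BilinForm)

variable {F : Type*} [Field F] {ι κ : Type} [Fintype ι] [Fintype κ]

/-- Indices of the chain vectors. -/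
abbrev Idx (k : ι → ℕ) : Type := (a : ι) × Fin (k a)

/-- The Gram matrix of chain vectors. -/
def gram (k : ι → ℕ) (H : Matrix ι ι F) : Matrix (Idx k) (Idx k) F :=
  Matrix.of fun u v =>
    if (u.2 : ℕ) + v.2 + 1 = k u.1 then (-1 : F) ^ (v.2 : ℕ) * H u.1 v.1 else 0

theorem gram_apply (k : ι → ℕ) (H : Matrix ι ι F) (u v : Idx k) :
    gram k H u v =
      if (u.2 : ℕ) + v.2 + 1 = k u.1 then (-1 : F) ^ (v.2 : ℕ) * H u.1 v.1 else 0 := rfl

/-- A chain datum. -/
structure Datum (k : ι → ℕ) (H : Matrix ι ι F) : Prop where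
  pos : ∀ a, 1 ≤ k a
  blocks : ∀ a b, k a ≠ k b → H a b = 0
  inj : ∀ y : ι → F, H.mulVec y = 0 → y = 0

theorem Datum.gram_inj {k : ι → ℕ} {H : Matrix ι ι F} (hD : Datum k H) (c : Idx k → F)
    (hc : (gram k H).mulVec c = 0) : c = 0 := by
  classical
  funext ⟨b, s⟩
  set y : ι → F := fun b' => if h : (s : ℕ) < k b' then (-1 : F) ^ (s : ℕ) * c ⟨b', ⟨s, h⟩⟩ else 0
    with hy
  have hzero : H.mulVec y = 0 := by
    funext a
    show ∑ b', H a b' * y b' = 0
    by_cases hs : (s : ℕ) < k a
    · have hj : k a - 1 - s < k a := by omega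
      have h := congrFun hc ⟨a, ⟨k a - 1 - s, hj⟩⟩
      refine Eq.trans ?_ h
      show _ = ∑ v : Idx k, gram k H _ v * c v
      rw [Fintype.sum_sigma]
      refine Finset.sum_congr rfl fun b' _ => ?_
      by_cases hk : k a = k b'
      · rw [Finset.sum_eq_single ⟨(s : ℕ), hk ▸ hs⟩]
        · rw [gram_apply]
          simp only [hy, dif_pos (hk ▸ hs : (s : ℕ) < k b'), Fin.val_mk]
          rw [if_pos (by omega)]
          ring
        · intro t _ ht
          rw [gram_apply, if_neg, zero_mul]
          intro e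
          apply ht
          ext
          simp only [Fin.val_mk] at e ⊢
          omega
        · simp
      · simp [gram_apply, hD.blocks a b' hk]
    · refine Finset.sum_eq_zero fun b' _ => ?_
      by_cases hk : k a = k b'
      · simp [hy, dif_neg (hk ▸ hs : ¬ (s : ℕ) < k b')]
      · simp [hD.blocks a b' hk]
  have := congrFun (hD.inj y hzero) b
  simpa [hy, s.2] using this

variable {V : Type*} [AddCommGroup V] [Module F V]

/-- `S` is skew for `B`. -/
def IsSkew (B : BilinForm F V) (S : Module.End F V) : Prop := ∀ u v, B (S u) v = - B u (S v)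

theorem skew_pow {B : BilinForm F V} {S : Module.End F V} (hS : IsSkew B S) :
    ∀ (i : ℕ) (u v : V), B ((S ^ i) u) v = (-1 : F) ^ i * B u ((S ^ i) v) := by
  intro i
  induction i with
  | zero => simp
  | succ i ih =>
    intro u v
    have e1 : (S ^ (i + 1)) u = (S ^ i) (S u) := by rw [pow_succ, Module.End.mul_apply]
    have e2 : S ((S ^ i) v) = (S ^ (i + 1)) v := by rw [pow_succ', Module.End.mul_apply]
    rw [e1, ih, hS u ((S ^ i) v), e2, pow_succ (-1 : F) i]
    ring

theorem pow_add_apply (S : Module.End F V) (i j : ℕ) (v : V) :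
    (S ^ (i + j)) v = (S ^ i) ((S ^ j) v) := by
  rw [pow_add, Module.End.mul_apply]

theorem pow_eq_zero_of_le {S : Module.End F V} {i j : ℕ} {v : V} (h : (S ^ i) v = 0)
    (hij : i ≤ j) : (S ^ j) v = 0 := by
  obtain ⟨t, rfl⟩ := Nat.exists_eq_add_of_le hij
  rw [add_comm, pow_add_apply, h, map_zero]

/-- Chains with a prescribed datum. -/
structure Chain (B : BilinForm F V) (S : Module.End F V) (k : ι → ℕ) (H : Matrix ι ι F)
    (x : ι → V) : Prop where
  nil : ∀ a, (S ^ k a) (x a) = 0
  gram_eq : ∀ a b (i j : ℕ), i < k a → j < k b →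
    B ((S ^ i) (x a)) ((S ^ j) (x b)) = if i + j + 1 = k a then (-1 : F) ^ j * H a b else 0

/-- The chain vectors. -/
def vecs (S : Module.End F V) (k : ι → ℕ) (x : ι → V) : Idx k → V :=
  fun u => (S ^ (u.2 : ℕ)) (x u.1)

section
variable {B : BilinForm F V} {S : Module.End F V} {k : ι → ℕ} {H : Matrix ι ι F} {x : ι → V}

theorem Chain.vecs_gram (hx : Chain B S k H x) (u v : Idx k) :
    B (vecs S k x u) (vecs S k x v) = gram k H u v :=
  hx.gram_eq _ _ _ _ u.2.2 v.2.2

theorem Chain.eq_zero (hD : Datum k H) (hx : Chain B S k H x) (c : Idx k → F)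
    (h : ∀ u, B (vecs S k x u) (∑ v, c v • vecs S k x v) = 0) : c = 0 := by
  refine hD.gram_inj c (funext fun u => ?_)
  refine Eq.trans ?_ (h u)
  simp only [map_sum, map_smul, hx.vecs_gram, smul_eq_mul, Matrix.mulVec, dotProduct, mul_comm]

theorem Chain.linearIndependent (hD : Datum k H) (hx : Chain B S k H x) :
    LinearIndependent F (vecs S k x) := by
  rw [Fintype.linearIndependent_iff]
  intro c hc u
  exact congrFun (hx.eq_zero hD c fun w => by rw [hc, map_zero]) u

theorem Chain.apply_mem_span (hx : Chain B S k H x) {w : V}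
    (hw : w ∈ Submodule.span F (Set.range (vecs S k x))) :
    S w ∈ Submodule.span F (Set.range (vecs S k x)) := by
  induction hw using Submodule.span_induction with
  | mem w hw =>
    obtain ⟨⟨a, j⟩, rfl⟩ := hw
    have e : S (vecs S k x ⟨a, j⟩) = (S ^ ((j : ℕ) + 1)) (x a) := by
      rw [pow_succ', Module.End.mul_apply]; rfl
    rw [e]
    by_cases h : (j : ℕ) + 1 < k a
    · exact Submodule.subset_span ⟨⟨a, ⟨(j : ℕ) + 1, h⟩⟩, rfl⟩
    · rw [pow_eq_zero_of_le (hx.nil a) (by omega)]
      exact zero_mem _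
  | zero => simp
  | add u v _ _ hu hv => simpa using add_mem hu hv
  | smul c u _ hu => simpa using Submodule.smul_mem _ c hu

theorem Chain.symm_block (hA : B.IsAlt) (hS : IsSkew B S) (hD : Datum k H)
    (hx : Chain B S k H x) (a b : ι) : H b a = (-1 : F) ^ k a * H a b := by
  by_cases hk : k a = k b
  · have h1 := hx.gram_eq a b (k a - 1) 0 (by have := hD.pos a; omega) (hD.pos b)
    have h2 := hx.gram_eq b a (k b - 1) 0 (by have := hD.pos b; omega) (hD.pos a)
    rw [if_pos (by have := hD.pos a; omega)] at h1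
    rw [if_pos (by have := hD.pos b; omega)] at h2
    have h3 := LinearMap.IsAlt.neg hA ((S ^ (k a - 1)) (x a)) (x b)
    obtain ⟨n, hn⟩ : ∃ n, k a = n + 1 := ⟨k a - 1, by have := hD.pos a; omega⟩
    simp only [pow_zero, one_mul, Module.End.one_apply] at h1 h2
    rw [← h2, ← hk, skew_pow hS, ← h3, h1, hn, Nat.add_sub_cancel, pow_succ]
    ring
  · rw [hD.blocks a b hk, hD.blocks b a (Ne.symm hk), mul_zero]

/-- Changing the starting vectors. -/
theorem Chain.change {k' : κ → ℕ} (hx : Chain B S k H x) (P : Matrix ι κ F)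
    (hP : ∀ a b, k a ≠ k' b → P a b = 0) :
    Chain B S k' (P.transpose * H * P) (fun b => ∑ a, P a b • x a) where
  nil b := by
    rw [map_sum]
    refine Finset.sum_eq_zero fun a _ => ?_
    rw [map_smul]
    by_cases h : k a = k' b
    · rw [← h, hx.nil, smul_zero]
    · rw [hP a b h, zero_smul]
  gram_eq b b' i j hi hj := by
    have e : B ((S ^ i) (∑ a, P a b • x a)) ((S ^ j) (∑ a, P a b' • x a)) =
        ∑ a, ∑ a', P a b * (P a' b' *
          (if i + j + 1 = k' b then (-1 : F) ^ j * H a a' else 0)) := by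
      simp only [map_sum, map_smul, LinearMap.sum_apply, LinearMap.smul_apply, smul_eq_mul,
        Finset.mul_sum]
      rw [Finset.sum_comm]
      refine Finset.sum_congr rfl fun a _ => Finset.sum_congr rfl fun a' _ => ?_
      by_cases h : k a = k' b
      · by_cases h' : k a' = k' b'
        · rw [hx.gram_eq a a' i j (h ▸ hi) (h' ▸ hj), h]
          ring
        · simp [hP a' b' h']
      · simp [hP a b h]
    rw [e]
    split_ifs with h
    · simp only [Matrix.mul_apply, Matrix.transpose_apply, Finset.sum_mul, Finset.mul_sum]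
      rw [Finset.sum_comm]
      exact Finset.sum_congr rfl fun a _ => Finset.sum_congr rfl fun a' _ => by ring
    · simp

end

/-- Two spanning chains with the same datum give an isomorphism. -/
theorem exists_iso_of_chains {V' : Type*} [AddCommGroup V'] [Module F V'] {B : BilinForm F V}
    {S : Module.End F V} {B' : BilinForm F V'} {S' : Module.End F V'} {k : ι → ℕ}
    {H : Matrix ι ι F} {x : ι → V} {x' : ι → V'} (hD : Datum k H) (hx : Chain B S k H x)
    (hs : Submodule.span F (Set.range (vecs S k x)) = ⊤) (hx' : Chain B' S' k H x')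
    (hs' : Submodule.span F (Set.range (vecs S' k x')) = ⊤) :
    ∃ E : V ≃ₗ[F] V', (∀ v, E (S v) = S' (E v)) ∧ ∀ u v, B' (E u) (E v) = B u v := by
  let b := Module.Basis.mk (hx.linearIndependent hD) (le_of_eq hs.symm)
  let b' := Module.Basis.mk (hx'.linearIndependent hD) (le_of_eq hs'.symm)
  let E := b.equiv b' (Equiv.refl _)
  have hE : ∀ u, E (vecs S k x u) = vecs S' k x' u := fun u => by
    have := b.equiv_apply u b' (Equiv.refl _)
    simpa [E, b, b'] using this
  refine ⟨E, fun v => ?_, fun u v => ?_⟩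
  · suffices h : E.toLinearMap ∘ₗ S = S' ∘ₗ E.toLinearMap from LinearMap.congr_fun h v
    refine b.ext fun u => ?_
    obtain ⟨a, j⟩ := u
    simp only [b, Module.Basis.mk_apply, LinearMap.comp_apply, LinearEquiv.coe_coe, hE]
    have e : ∀ (W : Type _) [AddCommGroup W] [Module F W] (T : Module.End F W) (w : W),
        T ((T ^ (j : ℕ)) w) = (T ^ ((j : ℕ) + 1)) w := fun W _ _ T w => by
      rw [pow_succ', Module.End.mul_apply]
    have e1 : S (vecs S k x ⟨a, j⟩) = (S ^ ((j : ℕ) + 1)) (x a) := e V S (x a)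
    have e2 : S' (vecs S' k x' ⟨a, j⟩) = (S' ^ ((j : ℕ) + 1)) (x' a) := by
      rw [pow_succ', Module.End.mul_apply]; rfl
    rw [e1, e2]
    by_cases h : (j : ℕ) + 1 < k a
    · exact hE ⟨a, ⟨(j : ℕ) + 1, h⟩⟩
    · rw [pow_eq_zero_of_le (hx.nil a) (by omega), pow_eq_zero_of_le (hx'.nil a) (by omega),
        map_zero]
  · suffices h : B'.compl₁₂ E.toLinearMap E.toLinearMap = B from
      LinearMap.congr_fun₂ h u v
    refine LinearMap.BilinForm.ext_basis b fun u v => ?_
    simp [b, hE, hx.vecs_gram, hx'.vecs_gram]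

/-- The level `K` block of a chain is an invariant of the space, up to congruence. -/
theorem Chain.exists_congr {B : BilinForm F V} {S : Module.End F V} {k : ι → ℕ}
    {H : Matrix ι ι F} {x : ι → V} {k' : κ → ℕ} {H' : Matrix κ κ F} {x' : κ → V}
    (hx : Chain B S k H x) (hD' : Datum k' H') (hx' : Chain B S k' H' x')
    (hs' : Submodule.span F (Set.range (vecs S k' x')) = ⊤) (K : ℕ) (hK : 1 ≤ K) :
    ∃ P : κ → ι → F, ∀ a b, k a = K → k b = K →
      H a b = ∑ c ∈ Finset.univ.filter (fun c => k' c = K),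
        ∑ d ∈ Finset.univ.filter (fun d => k' d = K), P c a * H' c d * P d b := by
  classical
  let bs := Module.Basis.mk (hx'.linearIndependent hD') (le_of_eq hs'.symm)
  refine ⟨fun c a => bs.repr (x a) ⟨c, ⟨0, hD'.pos c⟩⟩, fun a b ha hb => ?_⟩
  have hexp : ∀ a, x a = ∑ u, bs.repr (x a) u • vecs S k' x' u := fun a => by
    conv_lhs => rw [← bs.sum_repr (x a)]
    simp [bs]
  have hvan : ∀ a, k a = K → ∀ c (j : Fin (k' c)), (j : ℕ) + K < k' c →
      bs.repr (x a) ⟨c, j⟩ = 0 := by
    intro a ha c j hj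
    let coef : Idx k' → F := fun v =>
      if h : K ≤ (v.2 : ℕ) then bs.repr (x a) ⟨v.1, ⟨(v.2 : ℕ) - K, by omega⟩⟩ else 0
    have hsum : ∑ v, coef v • vecs S k' x' v = (S ^ K) (x a) := by
      conv_rhs => rw [hexp a]
      rw [map_sum, Fintype.sum_sigma, Fintype.sum_sigma]
      refine Finset.sum_congr rfl fun c _ => ?_
      rw [← Finset.sum_filter_of_ne (p := fun t : Fin (k' c) => K ≤ (t : ℕ))]
      swap
      · intro t _ ht
        by_contra hlt
        simp [coef, hlt] at ht
      symm
      rw [← Finset.sum_filter_of_ne (p := fun t : Fin (k' c) => (t : ℕ) + K < k' c)]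
      swap
      · intro t _ ht
        by_contra hlt
        apply ht
        rw [map_smul, vecs, ← pow_add_apply, pow_eq_zero_of_le (hx'.nil c) (by simp only; omega),
          smul_zero]
      refine Finset.sum_bij' (fun t h => ⟨(t : ℕ) + K, (Finset.mem_filter.1 h).2⟩)
        (fun t _ => ⟨(t : ℕ) - K, by omega⟩) ?_ ?_ ?_ ?_ ?_
      · intro t _
        simp
      · intro t ht
        simp only [Finset.mem_filter, Finset.mem_univ, true_and] at ht ⊢
        omega
      · intro t _
        ext; simp
      · intro t ht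
        simp only [Finset.mem_filter, Finset.mem_univ, true_and] at ht
        ext; simp only; omega
      · intro t _
        rw [map_smul]
        simp only [coef, vecs, Fin.val_mk]
        rw [dif_pos (Nat.le_add_left K t), ← pow_add_apply, add_comm K (t : ℕ)]
        congr 2
        congr 1
        ext; simp
    rw [← ha, hx.nil] at hsum
    have := Fintype.linearIndependent_iff.1 (hx'.linearIndependent hD') coef hsum
      ⟨c, ⟨(j : ℕ) + K, hj⟩⟩
    simpa [coef] using this
  have h1 := hx.gram_eq a b (K - 1) 0 (by omega) (by omega)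
  rw [if_pos (by omega)] at h1
  simp only [pow_zero, one_mul, Module.End.one_apply] at h1
  rw [← h1]
  conv_lhs => rw [hexp a, hexp b]
  simp only [map_sum, map_smul, LinearMap.sum_apply, LinearMap.smul_apply, smul_eq_mul]
  have hterm : ∀ u v : Idx k', bs.repr (x b) v * (bs.repr (x a) u *
      B ((S ^ (K - 1)) (vecs S k' x' u)) (vecs S k' x' v)) ≠ 0 →
      ((u.2 : ℕ) = 0 ∧ k' u.1 = K) ∧ ((v.2 : ℕ) = 0 ∧ k' v.1 = K) := by
    rintro ⟨c, i⟩ ⟨d, j⟩ h
    simp only [vecs, ← pow_add_apply] at h
    by_cases hlt : K - 1 + (i : ℕ) < k' c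
    · rw [hx'.gram_eq c d _ _ hlt j.2] at h
      by_cases he : K - 1 + (i : ℕ) + j + 1 = k' c
      · rw [if_pos he] at h
        have hcd : k' c = k' d := by
          by_contra hne
          exact h (by rw [hD'.blocks c d hne]; ring)
        have hc : k' c ≤ (i : ℕ) + K := by
          by_contra hne
          exact h (by rw [hvan a ha c i (by omega)]; ring)
        have hd : k' d ≤ (j : ℕ) + K := by
          by_contra hne
          exact h (by rw [hvan b hb d j (by omega)]; ring)
        simp only
        omega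
      · rw [if_neg he] at h
        exact absurd (by ring) h
    · rw [pow_eq_zero_of_le (hx'.nil c) (by omega)] at h
      simp at h
  set T : Idx k' → Idx k' → F := fun u v => bs.repr (x b) v * (bs.repr (x a) u *
    B ((S ^ (K - 1)) (vecs S k' x' u)) (vecs S k' x' v)) with hT
  have hred : ∀ g : Idx k' → F, (∀ u, g u ≠ 0 → (u.2 : ℕ) = 0 ∧ k' u.1 = K) →
      ∑ u, g u = ∑ c ∈ Finset.univ.filter (fun c => k' c = K), g ⟨c, ⟨0, hD'.pos c⟩⟩ := by
    intro g hg
    rw [Fintype.sum_sigma, Finset.sum_filter]
    refine Finset.sum_congr rfl fun c _ => ?_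
    rw [Fintype.sum_eq_single (⟨0, hD'.pos c⟩ : Fin (k' c))]
    · split_ifs with h
      · rfl
      · by_contra h0
        exact h (hg _ h0).2
    · intro t ht
      by_contra h0
      exact ht (Fin.ext (hg _ h0).1)
  calc _ = ∑ u, ∑ v, T u v := by
        simp only [hT, Finset.mul_sum]
        rw [Finset.sum_comm]
    _ = ∑ c ∈ Finset.univ.filter (fun c => k' c = K), ∑ v, T ⟨c, ⟨0, hD'.pos c⟩⟩ v := by
        refine hred _ fun u hu => ?_
        obtain ⟨v, -, hv⟩ := Finset.exists_ne_zero_of_sum_ne_zero hu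
        exact (hterm u v hv).1
    _ = _ := by
        refine Finset.sum_congr rfl fun c hc => ?_
        rw [hred _ fun v hv => (hterm _ v hv).2]
        refine Finset.sum_congr rfl fun d hd => ?_
        simp only [Finset.mem_filter, Finset.mem_univ, true_and] at hc hd
        simp only [hT, vecs, Fin.val_mk]
        rw [← pow_add_apply, hx'.gram_eq c d _ _ (by omega) (by omega), if_pos (by omega)]
        ring

end Cfsg.Agent.SympUnip
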