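import Cfsg.Agent.SympUnip.Exist
import Cfsg.Agent.GraphForms.Symm
import Cfsg.Agent.SympSub.Iso

/-!
The levels of a chain datum, and congruences of their Gram blocks.
-/

set_option autoImplicit false

namespace Cfsg.Agent.SympUnip

open Module Matrix
open LinearMap (BilinForm)

variable {F : Type*} [Field F] {ι κ : Type} [Fintype ι] [DecidableEq ι] [Fintype κ] [DecidableEq κ]

/-- Indices of chains of length `K`. -/
abbrev Fib (k : ι → ℕ) (K : ℕ) : Type := {a : ι // k a = K}

/-- The block of a level. -/
def blk (k : ι → ℕ) (H : Matrix ι ι F) (K : ℕ) : Matrix (Fib k K) (Fib k K) F :=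
  H.submatrix Subtype.val Subtype.val

theorem Datum.blk_det_ne_zero {k : ι → ℕ} {H : Matrix ι ι F} (hD : Datum k H) (K : ℕ) :
    (blk k H K).det ≠ 0 := by
  intro h0
  obtain ⟨c, hc0, hc⟩ := Matrix.exists_mulVec_eq_zero_iff.2 h0
  apply hc0
  let y : ι → F := fun a => if h : k a = K then c ⟨a, h⟩ else 0
  have hy : H.mulVec y = 0 := by
    funext a
    show ∑ b, H a b * y b = 0
    by_cases ha : k a = K
    · refine Eq.trans ?_ (congrFun hc ⟨a, ha⟩)
      show _ = ∑ b : Fib k K, H a b.1 * c b
      rw [← Finset.sum_filter_of_ne (p := fun b => k b = K)]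
      · rw [Finset.sum_subtype (p := fun b => k b = K) _ (by simp)]
        exact Finset.sum_congr rfl fun b _ => by simp [y, b.2]
      · intro b _ hb
        by_contra hne
        simp [y, hne] at hb
    · refine Finset.sum_eq_zero fun b _ => ?_
      by_cases hb : k b = K
      · rw [hD.blocks a b (hb.symm ▸ ha), zero_mul]
      · simp [y, hb]
  funext a
  simpa [y, a.2] using congrFun (hD.inj y hy) a.1

variable {V : Type*} [AddCommGroup V] [Module F V] {B : BilinForm F V} {S : Module.End F V}

theorem Chain.blk_transpose {k : ι → ℕ} {H : Matrix ι ι F} {x : ι → V} (hA : B.IsAlt)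
    (hS : IsSkew B S) (hD : Datum k H) (hx : Chain B S k H x) (K : ℕ) :
    (blk k H K)ᵀ = ((-1 : F) ^ K) • blk k H K := by
  ext a b
  simp only [blk, transpose_apply, submatrix_apply, Matrix.smul_apply, smul_eq_mul]
  rw [hx.symm_block hA hS hD a.1 b.1, a.2]

theorem idx_card_eq {k : ι → ℕ} {k' : κ → ℕ}
    (hcard : ∀ K, Fintype.card (Fib k K) = Fintype.card (Fib k' K)) :
    Fintype.card (Idx k) = Fintype.card (Idx k') :=
  Fintype.card_congr (Equiv.sigmaCongr
    (Equiv.ofFiberEquiv fun K => Fintype.equivOfCardEq (hcard K))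
    (fun a => finCongr (Equiv.ofFiberEquiv_map (f := k) (g := k')
      (fun K => Fintype.equivOfCardEq (hcard K)) a).symm))

/-- A spanning chain may be moved to any datum with congruent levels. -/
theorem exists_change {k : ι → ℕ} {H : Matrix ι ι F} {x : ι → V} (hD : Datum k H)
    (hx : Chain B S k H x) (hs : Submodule.span F (Set.range (vecs S k x)) = ⊤) {k' : κ → ℕ}
    {H' : Matrix κ κ F} (hD' : Datum k' H')
    (hcard : ∀ K, Fintype.card (Fib k K) = Fintype.card (Fib k' K))
    (hP : ∀ K, ∃ P : Matrix (Fib k K) (Fib k' K) F, Pᵀ * blk k H K * P = blk k' H' K) :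
    ∃ x' : κ → V, Chain B S k' H' x' ∧ Submodule.span F (Set.range (vecs S k' x')) = ⊤ := by
  choose P hP using hP
  let Q : Matrix ι κ F := Matrix.of fun a b =>
    if h : k a = k' b then P (k' b) ⟨a, h⟩ ⟨b, rfl⟩ else 0
  have hQ0 : ∀ a b, k a ≠ k' b → Q a b = 0 := fun a b h => dif_neg h
  have hQ : Qᵀ * H * Q = H' := by
    ext b b'
    simp only [Matrix.mul_apply, transpose_apply, Finset.sum_mul]
    rw [Finset.sum_comm]
    by_cases hbb : k' b = k' b'
    · have e := congrFun (congrFun (hP (k' b)) ⟨b, rfl⟩) ⟨b', hbb.symm⟩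
      simp only [blk, Matrix.mul_apply, transpose_apply, submatrix_apply, Finset.sum_mul] at e
      rw [Finset.sum_comm] at e
      rw [← e]
      rw [← Finset.sum_filter_of_ne (p := fun a => k a = k' b)]
      swap
      · intro a _ ha
        by_contra hne
        apply ha
        refine Finset.sum_eq_zero fun a' _ => ?_
        rw [hQ0 a b hne]; ring
      rw [Finset.sum_subtype (p := fun a => k a = k' b) _ (by simp)]
      refine Finset.sum_congr rfl fun a _ => ?_
      rw [← Finset.sum_filter_of_ne (p := fun a' => k a' = k' b)]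
      swap
      · intro a' _ ha
        by_contra hne
        apply ha
        rw [hQ0 a' b' (fun h => hne (h.trans hbb.symm))]; ring
      rw [Finset.sum_subtype (p := fun a' => k a' = k' b) _ (by simp)]
      refine Finset.sum_congr rfl fun a' _ => ?_
      have e1 : Q a.1 b = P (k' b) a ⟨b, rfl⟩ := dif_pos a.2
      have e2 : ∀ (K : ℕ) (hb : k' b' = K) (a' : Fib k K), Q a'.1 b' = P K a' ⟨b', hb⟩ := by
        intro K hb a'
        subst hb
        exact dif_pos a'.2
      rw [e1, e2 (k' b) hbb.symm a']
    · rw [hD'.blocks b b' hbb]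
      refine Finset.sum_eq_zero fun a _ => Finset.sum_eq_zero fun a' _ => ?_
      by_cases h1 : k a = k' b
      · by_cases h2 : k a' = k' b'
        · rw [hD.blocks a a' (by rw [h1, h2]; exact hbb)]; ring
        · rw [hQ0 a' b' h2]; ring
      · rw [hQ0 a b h1]; ring
  have hch := hx.change Q hQ0
  rw [hQ] at hch
  have bV := Module.Basis.mk (hx.linearIndependent hD) hs.ge
  haveI : FiniteDimensional F V := Module.Finite.of_basis bV
  refine ⟨_, hch, (hch.linearIndependent hD').span_eq_top_of_card_eq_finrank' ?_⟩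
  rw [← idx_card_eq hcard]
  exact (Module.finrank_eq_card_basis bV).symm

/-- Non-singular alternating matrices are congruent, and of even size. -/
theorem exists_congr_alt {n : Type} [Fintype n] [DecidableEq n] (h2 : (2 : F) ≠ 0)
    {A C : Matrix n n F} (hA : Aᵀ = -A) (hC : Cᵀ = -C) (hAd : A.det ≠ 0) (hCd : C.det ≠ 0) :
    Even (Fintype.card n) ∧ ∃ P : Matrix n n F, Pᵀ * A * P = C := by
  have halt : ∀ M : Matrix n n F, Mᵀ = -M → (Matrix.toBilin' M).IsAlt := by
    intro M hM v
    have e : Matrix.toBilin' M v v = - Matrix.toBilin' M v v := by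
      rw [Matrix.toBilin'_apply']
      conv_lhs => rw [Matrix.dotProduct_mulVec, ← Matrix.mulVec_transpose, hM, Matrix.neg_mulVec,
        neg_dotProduct, dotProduct_comm]
    have : (2 : F) * Matrix.toBilin' M v v = 0 := by linear_combination e
    exact (mul_eq_zero.1 this).resolve_left h2
  have hAn : (Matrix.toBilin' A).Nondegenerate :=
    LinearMap.BilinForm.nondegenerate_toBilin'_of_det_ne_zero' A hAd
  have hCn : (Matrix.toBilin' C).Nondegenerate :=
    LinearMap.BilinForm.nondegenerate_toBilin'_of_det_ne_zero' C hCd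
  obtain ⟨r, b, -⟩ := Forms.exists_symplectic_basis (halt A hA) hAn
  have hr : Module.finrank F (n → F) = 2 * r := by
    rw [Module.finrank_eq_card_basis b, Fintype.card_sum, Fintype.card_fin]; omega
  obtain ⟨e, he⟩ := SympSub.exists_iso_sympBil (halt A hA) hAn hr
  obtain ⟨f, hf⟩ := SympSub.exists_iso_sympBil (halt C hC) hCn hr
  refine ⟨⟨r, by rw [← Module.finrank_fintype_fun_eq_card F, hr]; omega⟩,
    LinearMap.toMatrix' (f.trans e.symm).toLinearMap, ?_⟩
  apply Matrix.toBilin'.injective
  rw [← Matrix.toBilin'_comp]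
  refine LinearMap.ext₂ fun u v => ?_
  simp only [LinearMap.BilinForm.comp_apply, Matrix.toLin'_toMatrix', LinearEquiv.coe_coe,
    LinearEquiv.trans_apply]
  rw [← he, e.apply_symm_apply, e.apply_symm_apply, hf]

/-- A product of two non-squares of a finite field is a square. -/
theorem isSquare_mul_of_not [Finite F] (h2 : (2 : F) ≠ 0) {a b : F} (ha : ¬ IsSquare a)
    (hb : ¬ IsSquare b) : IsSquare (a * b) := by
  classical
  haveI := Fintype.ofFinite F
  have hc : ringChar F ≠ 2 := fun e => h2 (by
    have h := ringChar.Nat.cast_ringChar (R := F)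
    rwa [e] at h)
  have ha0 : a ≠ 0 := fun h => ha (h ▸ IsSquare.zero)
  have hb0 : b ≠ 0 := fun h => hb (h ▸ IsSquare.zero)
  rw [← quadraticChar_one_iff_isSquare (mul_ne_zero ha0 hb0), map_mul,
    quadraticChar_neg_one_iff_not_isSquare.2 ha, quadraticChar_neg_one_iff_not_isSquare.2 hb]
  norm_num

end Cfsg.Agent.SympUnip
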